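import Mathlib
import Cfsg.Agent.Lib.Coprime.Complement

/-!
# Coprime automorphisms fixing the centralizer of an involution: the midpoint argument

Setting: `N` normal in the finite group `E`, `β ∈ E` of prime order `r` not dividing `|N|`, and an
involution `τ ∈ N` commuting with `β` such that `C_N(τ) ≤ C_N(β)`.

Every `N`-conjugate `t` of `τ` commutes with a unique `N`-conjugate of `β`.  If two such `s, s'` send
a conjugate `a` of `β` to the same point, then `s` and `s'` commute with the same conjugate of `β`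
(the midpoint).  Counting then shows that all conjugates of `τ` commuting with `β` act in the same way
on the set of conjugates of `β`.
-/

set_option autoImplicit false
set_option linter.unusedSectionVars false
set_option linter.style.haveILetI false
open Pointwise

namespace Cfsg.Agent.Lib.MidPoint.Basic

open Cfsg.Agent.Lib.Coprime.Action Cfsg.Agent.Lib.Coprime.Complement

universe u

variable {E : Type u} [Group E] [Finite E]

/-- An element of the coset `Y a` of order dividing `r` is `Y`-conjugate to `a`. -/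
theorem eq_conj_of_pow_eq_one {Y : Subgroup E} {a b : E} {r : ℕ} (hr : r.Prime)
    (ha : orderOf a = r) (hY : ¬ r ∣ Nat.card Y) (hn : a ∈ Subgroup.normalizer (Y : Set E))
    (hb : b * a⁻¹ ∈ Y) (hbr : b ^ r = 1) : ∃ q ∈ Y, b = q * a * q⁻¹ := by
  haveI := Fact.mk hr
  have hK : Subgroup.zpowers a ≤ Subgroup.normalizer (Y : Set E) :=
    (Subgroup.zpowers_le).mpr hn
  have hb1 : b ≠ 1 := by
    rintro rfl
    have h1 : a ∈ Y := by simpa using Y.inv_mem hb
    exact hY (ha ▸ Subgroup.orderOf_dvd_natCard Y h1)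
  have hob : orderOf b = r := orderOf_eq_prime hbr hb1
  have hbsup : Subgroup.zpowers b ≤ Y ⊔ Subgroup.zpowers a := by
    rw [Subgroup.zpowers_le]
    have : b = (b * a⁻¹) * a := by group
    rw [this]
    exact Subgroup.mul_mem _ (Subgroup.mem_sup_left hb)
      (Subgroup.mem_sup_right (Subgroup.mem_zpowers a))
  have hcop : (Nat.card Y).Coprime (Nat.card (Subgroup.zpowers a)) := by
    rw [Nat.card_zpowers, ha]
    exact ((Nat.Prime.coprime_iff_not_dvd hr).mpr hY).symm
  obtain ⟨n, hnY, he⟩ := exists_conj_of_le_sup hK hbsup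
    (by rw [Nat.card_zpowers, Nat.card_zpowers, ha, hob]) hcop
    (Or.inr (by
      haveI : IsMulCommutative (Subgroup.zpowers a) := inferInstance
      infer_instance))
  have h1 : n * a * n⁻¹ ∈ Subgroup.zpowers b := by
    rw [← he]
    have := Subgroup.smul_mem_pointwise_smul a (MulAut.conj n) (Subgroup.zpowers a)
      (Subgroup.mem_zpowers a)
    simpa [MulAut.smul_def, MulAut.conj_apply] using this
  obtain ⟨j, hj⟩ := (mem_powers_iff_mem_zpowers).mpr h1
  have hj' : b ^ j = n * a * n⁻¹ := hj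
  have hnorm : ∀ k : ℕ, ∀ y ∈ Y, a ^ k * y * (a ^ k)⁻¹ ∈ Y := by
    intro k y hy
    have hak : a ^ k ∈ Subgroup.normalizer (Y : Set E) := Subgroup.pow_mem _ hn k
    exact (Subgroup.mem_normalizer_iff.mp hak y).mp hy
  have hcoset : ∀ k : ℕ, b ^ k * (a ^ k)⁻¹ ∈ Y := by
    intro k
    induction k with
    | zero => simp
    | succ k ih =>
      have e : b ^ (k + 1) * (a ^ (k + 1))⁻¹
          = (b ^ k * (a ^ k)⁻¹) * (a ^ k * (b * a⁻¹) * (a ^ k)⁻¹) := by
        rw [pow_succ, pow_succ]; group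
      rw [e]
      exact Y.mul_mem ih (hnorm k _ hb)
  have h2 : n * a * n⁻¹ * a⁻¹ ∈ Y := by
    have e : n * a * n⁻¹ * a⁻¹ = n * (a * n⁻¹ * a⁻¹) := by group
    rw [e]
    exact Y.mul_mem hnY ((Subgroup.mem_normalizer_iff.mp hn _).mp (Y.inv_mem hnY))
  have h3 : a * (a ^ j)⁻¹ ∈ Y := by
    have e : a * (a ^ j)⁻¹ = (n * a * n⁻¹ * a⁻¹)⁻¹ * (b ^ j * (a ^ j)⁻¹) := by
      rw [hj']; group
    rw [e]
    exact Y.mul_mem (Y.inv_mem h2) (hcoset j)
  have h4 : a * (a ^ j)⁻¹ ∈ Subgroup.zpowers a :=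
    Subgroup.mul_mem _ (Subgroup.mem_zpowers a)
      (Subgroup.inv_mem _ (Subgroup.pow_mem _ (Subgroup.mem_zpowers a) j))
  have h5 : a * (a ^ j)⁻¹ = 1 := by
    have d1 : orderOf (a * (a ^ j)⁻¹) ∣ r := by
      have := Subgroup.orderOf_dvd_natCard (Subgroup.zpowers a) h4
      rwa [Nat.card_zpowers, ha] at this
    have d2 := Subgroup.orderOf_dvd_natCard Y h3
    rcases (Nat.dvd_prime hr).mp d1 with h | h
    · exact orderOf_eq_one_iff.mp h
    · exact absurd (h ▸ d2) hY
  have h6 : a ^ 1 = a ^ j := by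
    rw [pow_one]
    exact mul_inv_eq_one.mp h5
  have h7 : 1 ≡ j [MOD r] := by
    rw [← ha]
    exact (pow_eq_pow_iff_modEq).mp h6
  have h8 : b ^ 1 = b ^ j := by
    apply (pow_eq_pow_iff_modEq).mpr
    rw [hob]
    exact h7
  refine ⟨n, hnY, ?_⟩
  rw [← hj', ← h8, pow_one]

/-- The standing hypotheses. -/
structure Setup (N : Subgroup E) (β τ : E) (r : ℕ) : Prop where
  prime : r.Prime
  order : orderOf β = r
  coprime : ¬ r ∣ Nat.card N
  tau_mem : τ ∈ N
  tau_sq : τ * τ = 1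
  tau_ne : τ ≠ 1
  comm : Commute τ β
  fix : ∀ c ∈ N, Commute c τ → Commute c β

/-- The `N`-conjugates of `β`. -/
def Om (N : Subgroup E) (β : E) : Set E := {a | ∃ x ∈ N, a = x * β * x⁻¹}

/-- The `N`-conjugates of `τ`. -/
def Inv' (N : Subgroup E) (τ : E) : Set E := {t | ∃ g ∈ N, t = g * τ * g⁻¹}

variable {N : Subgroup E} {β τ : E} {r : ℕ}

theorem self_mem_Om : β ∈ Om N β := ⟨1, N.one_mem, by simp⟩

theorem conj_mem_Om {a y : E} (ha : a ∈ Om N β) (hy : y ∈ N) : y * a * y⁻¹ ∈ Om N β := by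
  obtain ⟨x, hx, rfl⟩ := ha
  exact ⟨y * x, N.mul_mem hy hx, by group⟩

theorem conj_mem_Inv' {a y : E} (ha : a ∈ Inv' N τ) (hy : y ∈ N) : y * a * y⁻¹ ∈ Inv' N τ := by
  obtain ⟨x, hx, rfl⟩ := ha
  exact ⟨y * x, N.mul_mem hy hx, by group⟩

theorem Inv'_mem_N (h : τ ∈ N) {t : E} (ht : t ∈ Inv' N τ) [N.Normal] : t ∈ N := by
  obtain ⟨g, hg, rfl⟩ := ht
  exact N.mul_mem (N.mul_mem hg h) (N.inv_mem hg)

theorem Inv'_sq (h : τ * τ = 1) {t : E} (ht : t ∈ Inv' N τ) : t * t = 1 := by
  obtain ⟨g, _, rfl⟩ := ht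
  have e : g * τ * g⁻¹ * (g * τ * g⁻¹) = g * (τ * τ) * g⁻¹ := by group
  rw [e, h]; group

theorem pow_order_of_mem_Om (hord : orderOf β = r) {a : E} (ha : a ∈ Om N β) : a ^ r = 1 := by
  obtain ⟨x, _, rfl⟩ := ha
  rw [conj_pow, ← hord, pow_orderOf_eq_one]; group

theorem orderOf_of_mem_Om (hord : orderOf β = r) {a : E} (ha : a ∈ Om N β) : orderOf a = r := by
  obtain ⟨x, _, rfl⟩ := ha
  rw [← hord]
  have : x * β * x⁻¹ = (MulAut.conj x).toMonoidHom β := by simp [MulAut.conj_apply]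
  rw [this]
  exact orderOf_injective _ (MulAut.conj x).injective β

variable [N.Normal]

theorem mul_inv_mem_of_mem_Om {a b : E} (ha : a ∈ Om N β) (hb : b ∈ Om N β) : a * b⁻¹ ∈ N := by
  obtain ⟨x, hx, rfl⟩ := ha
  obtain ⟨z, hz, rfl⟩ := hb
  have e : x * β * x⁻¹ * (z * β * z⁻¹)⁻¹ = x * (β * (x⁻¹ * z) * β⁻¹) * z⁻¹ := by group
  rw [e]
  have h1 : β * (x⁻¹ * z) * β⁻¹ ∈ N := Subgroup.Normal.conj_mem inferInstance _
    (N.mul_mem (N.inv_mem hx) hz) β
  exact N.mul_mem (N.mul_mem hx h1) (N.inv_mem hz)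

/-- Uniqueness of the conjugate of `β` commuting with a conjugate of `τ`. -/
theorem unique_aux (h : Setup N β τ r) {g x : E} (hg : g ∈ N) (hx : x ∈ N)
    (hc : Commute (g * τ * g⁻¹) (x * β * x⁻¹)) : x * β * x⁻¹ = g * β * g⁻¹ := by
  set k := x⁻¹ * g with hk
  have hkN : k ∈ N := N.mul_mem (N.inv_mem hx) hg
  have hgk : g = x * k := by rw [hk]; group
  have hc1 : Commute (k * τ * k⁻¹) β := by
    rw [← Commute.conj_iff x]
    have e : x * (k * τ * k⁻¹) * x⁻¹ = g * τ * g⁻¹ := by rw [hgk]; group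
    rw [e]
    exact hc
  set u := β * k * β⁻¹ with hu
  have huN : u ∈ N := Subgroup.Normal.conj_mem inferInstance _ hkN β
  have huconj : u * τ * u⁻¹ = k * τ * k⁻¹ := by
    have e1 : β⁻¹ * τ * β = τ := by
      rw [mul_assoc, h.comm.eq]; group
    have e2 : u * τ * u⁻¹ = β * (k * (β⁻¹ * τ * β) * k⁻¹) * β⁻¹ := by rw [hu]; group
    rw [e2, e1]
    have e3 := hc1.eq
    calc β * (k * τ * k⁻¹) * β⁻¹ = (β * (k * τ * k⁻¹)) * β⁻¹ := rfl
      _ = ((k * τ * k⁻¹) * β) * β⁻¹ := by rw [e3]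
      _ = k * τ * k⁻¹ := by group
  set y := k⁻¹ * u with hy
  have hyN : y ∈ N := N.mul_mem (N.inv_mem hkN) huN
  have hyτ : Commute y τ := by
    show y * τ = τ * y
    have e : y * τ = k⁻¹ * (u * τ * u⁻¹) * u := by rw [hy]; group
    rw [e, huconj, hy]; group
  have hyβ : Commute y β := h.fix y hyN hyτ
  have hstep : ∀ j : ℕ, β ^ j * k = k * y ^ j * β ^ j := by
    intro j
    induction j with
    | zero => simp
    | succ j ih =>
      have e0 : β * k = k * y * β := by
        rw [hy, hu]; group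
      calc β ^ (j + 1) * k = β * (β ^ j * k) := by rw [pow_succ']; group
        _ = β * (k * y ^ j * β ^ j) := by rw [ih]
        _ = (β * k) * y ^ j * β ^ j := by group
        _ = k * y * β * y ^ j * β ^ j := by rw [e0]
        _ = k * y * (β * y ^ j) * β ^ j := by group
        _ = k * y * (y ^ j * β) * β ^ j := by rw [((hyβ.pow_left j).eq).symm]
        _ = k * y ^ (j + 1) * β ^ (j + 1) := by
          rw [pow_succ' y, pow_succ' β]; group
  have h1 := hstep r
  have hβr : β ^ r = 1 := by rw [← h.order, pow_orderOf_eq_one]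
  rw [hβr] at h1
  have hyr : y ^ r = 1 := by
    have : k * 1 = k * y ^ r := by simpa using h1
    exact (mul_left_cancel this).symm
  have hy1 : y = 1 := by
    have d1 : orderOf y ∣ r := orderOf_dvd_of_pow_eq_one hyr
    have d2 := Subgroup.orderOf_dvd_natCard N hyN
    rcases (Nat.dvd_prime h.prime).mp d1 with e | e
    · exact orderOf_eq_one_iff.mp e
    · exact absurd (e ▸ d2) h.coprime
  have hku : u = k := by
    have : k⁻¹ * u = 1 := hy1
    exact (inv_mul_eq_one.mp this).symm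
  have hkβ : k * β = β * k := by
    have : β * k * β⁻¹ = k := hku
    rw [mul_inv_eq_iff_eq_mul] at this
    exact this.symm
  rw [hgk]
  have e : x * k * β * (x * k)⁻¹ = x * (k * β) * k⁻¹ * x⁻¹ := by group
  rw [e, hkβ]
  group

theorem unique_point (h : Setup N β τ r) {t a b : E} (ht : t ∈ Inv' N τ) (ha : a ∈ Om N β)
    (hb : b ∈ Om N β) (hta : Commute t a) (htb : Commute t b) : a = b := by
  obtain ⟨g, hg, rfl⟩ := ht
  obtain ⟨x, hx, rfl⟩ := ha
  obtain ⟨z, hz, rfl⟩ := hb
  rw [unique_aux h hg hx hta, unique_aux h hg hz htb]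

theorem exists_point (h : Setup N β τ r) {t : E} (ht : t ∈ Inv' N τ) :
    ∃ a ∈ Om N β, Commute t a := by
  obtain ⟨g, hg, rfl⟩ := ht
  refine ⟨g * β * g⁻¹, ⟨g, hg, rfl⟩, ?_⟩
  rw [Commute.conj_iff]
  exact h.comm

/-- Conjugation action of a subgroup of `N` on the conjugates of `β`. -/
@[reducible] def act (S : Subgroup E) (hS : S ≤ N) : MulAction S (Om N β) where
  smul s a := ⟨(s : E) * a * (s : E)⁻¹, conj_mem_Om a.2 (hS s.2)⟩
  one_smul a := by
    apply Subtype.ext
    show ((1 : S) : E) * (a : E) * ((1 : S) : E)⁻¹ = a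
    simp
  mul_smul s₁ s₂ a := by
    apply Subtype.ext
    show ((s₁ * s₂ : S) : E) * (a : E) * ((s₁ * s₂ : S) : E)⁻¹
      = (s₁ : E) * ((s₂ : E) * (a : E) * (s₂ : E)⁻¹) * (s₁ : E)⁻¹
    simp only [Subgroup.coe_mul]
    group

/-- The number of conjugates of `β` is odd. -/
theorem not_two_dvd_card_Om (h : Setup N β τ r) : ¬ 2 ∣ Nat.card (Om N β) := by
  set S := Subgroup.zpowers τ with hS
  have hτ2 : τ ^ 2 = 1 := by rw [sq]; exact h.tau_sq
  have hSN : S ≤ N := (Subgroup.zpowers_le).mpr h.tau_mem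
  have hcard : Nat.card S = 2 ^ 1 := by
    rw [hS, Nat.card_zpowers, pow_one]
    exact orderOf_eq_prime hτ2 h.tau_ne
  have hp : IsPGroup 2 S := IsPGroup.of_card hcard
  letI := act (N := N) (β := β) S hSN
  have hmod := hp.card_modEq_card_fixedPoints (Om N β)
  have hfix : Nat.card (MulAction.fixedPoints S (Om N β)) = 1 := by
    rw [Nat.card_eq_one_iff_unique]
    refine ⟨⟨?_⟩, ⟨⟨⟨β, self_mem_Om⟩, ?_⟩⟩⟩
    · rintro ⟨⟨a, ha⟩, ha'⟩ ⟨⟨b, hb⟩, hb'⟩
      apply Subtype.ext
      apply Subtype.ext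
      have hτS : τ ∈ S := Subgroup.mem_zpowers τ
      have key : ∀ c (hc : c ∈ Om N β), (⟨c, hc⟩ : Om N β) ∈ MulAction.fixedPoints S (Om N β) →
          Commute τ c := by
        intro c hc hcf
        have h1 := hcf ⟨τ, hτS⟩
        have h2 : τ * c * τ⁻¹ = c := congrArg Subtype.val h1
        exact (mul_inv_eq_iff_eq_mul.mp h2)
      have hτ' : τ ∈ Inv' N τ := ⟨1, N.one_mem, by simp⟩
      exact unique_point h hτ' ha hb (key a ha ha') (key b hb hb')
    · intro s
      apply Subtype.ext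
      show (s : E) * β * (s : E)⁻¹ = β
      obtain ⟨s, hs⟩ := s
      have hc : Commute s β := by
        obtain ⟨k, rfl⟩ := Subgroup.mem_zpowers_iff.mp hs
        exact h.comm.zpow_left k
      show s * β * s⁻¹ = β
      rw [hc.eq]; group
  rw [hfix] at hmod
  intro hd
  have h0 : Nat.card (Om N β) % 2 = 1 % 2 := hmod
  omega

/-- A conjugate of `β` normalizing a `2`-subgroup of `N` centralizes it. -/
theorem centralizes (h : Setup N β τ r) {S₀ : Subgroup E} (hS₀ : IsPGroup 2 S₀) (hle : S₀ ≤ N)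
    {b₀ : E} (hb₀ : b₀ ∈ Om N β) (hnorm : b₀ ∈ Subgroup.normalizer (S₀ : Set E)) :
    ∀ s ∈ S₀, Commute s b₀ := by
  letI := act (N := N) (β := β) S₀ hle
  obtain ⟨⟨c, hc⟩, hcf⟩ := hS₀.nonempty_fixed_point_of_prime_not_dvd_card (Om N β)
    (not_two_dvd_card_Om h)
  have hcc : ∀ s ∈ S₀, Commute s c := by
    intro s hs
    have h1 := hcf ⟨s, hs⟩
    have h2 : s * c * s⁻¹ = c := congrArg Subtype.val h1
    exact mul_inv_eq_iff_eq_mul.mp h2
  set P₀ := N ⊓ Subgroup.normalizer (S₀ : Set E) with hP₀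
  have hcn : c ∈ Subgroup.normalizer (S₀ : Set E) := by
    rw [Subgroup.mem_normalizer_iff]
    intro s
    have hinv : ∀ s ∈ S₀, c * s * c⁻¹ = s := by
      intro s hs
      rw [((hcc s hs).eq).symm]; group
    constructor
    · intro hs
      rw [hinv s hs]; exact hs
    · intro hs
      have h2 := hinv _ hs
      have e : c * (c * s * c⁻¹) * c⁻¹ = c * s * c⁻¹ := h2
      have e' : s = c * s * c⁻¹ := by
        have h3 : c * (c * s * c⁻¹) * c⁻¹ = c * s * c⁻¹ := e
        have h4 : c * s * c⁻¹ = s := by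
          have h5 : c⁻¹ * (c * (c * s * c⁻¹) * c⁻¹) * c = c⁻¹ * (c * s * c⁻¹) * c := by rw [h3]
          have h6 : c⁻¹ * (c * (c * s * c⁻¹) * c⁻¹) * c = c * s * c⁻¹ := by group
          have h7 : c⁻¹ * (c * s * c⁻¹) * c = s := by group
          rw [h6, h7] at h5
          exact h5
        exact h4.symm
      rw [e']; exact hs
  have hP₀n : b₀ ∈ Subgroup.normalizer (P₀ : Set E) := by
    rw [Subgroup.mem_normalizer_iff]
    intro y
    constructor
    · rintro ⟨hy1, hy2⟩
      exact ⟨Subgroup.Normal.conj_mem inferInstance _ hy1 _,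
        Subgroup.mul_mem _ (Subgroup.mul_mem _ hnorm hy2) (Subgroup.inv_mem _ hnorm)⟩
    · rintro ⟨hy1, hy2⟩
      have e : y = b₀⁻¹ * (b₀ * y * b₀⁻¹) * b₀ := by group
      rw [e]
      refine ⟨?_, Subgroup.mul_mem _ (Subgroup.mul_mem _ (Subgroup.inv_mem _ hnorm) hy2) hnorm⟩
      have := Subgroup.Normal.conj_mem (inferInstance : N.Normal) _ hy1 b₀⁻¹
      simpa using this
  have hmem : c * b₀⁻¹ ∈ P₀ :=
    ⟨mul_inv_mem_of_mem_Om hc hb₀, Subgroup.mul_mem _ hcn (Subgroup.inv_mem _ hnorm)⟩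
  have hdvd : ¬ r ∣ Nat.card P₀ := fun hd =>
    h.coprime (hd.trans (Subgroup.card_dvd_of_le inf_le_left))
  obtain ⟨q, hq, hcq⟩ := eq_conj_of_pow_eq_one h.prime (orderOf_of_mem_Om h.order hb₀) hdvd hP₀n
    hmem (pow_order_of_mem_Om h.order hc)
  intro s hs
  have hq2 : q * s * q⁻¹ ∈ S₀ := (Subgroup.mem_normalizer_iff.mp hq.2 s).mp hs
  have h1 := hcc _ hq2
  rw [hcq, Commute.conj_iff] at h1
  exact h1

/-- A conjugate of `β` normalizing `Y₁ ≤ N` has a `Y₁`-conjugate commuting with a given involution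
of `Y₁`. -/
theorem exists_conj_commute (h : Setup N β τ r) {a : E} (ha : a ∈ Om N β) {Y₁ : Subgroup E}
    (hY₁ : Y₁ ≤ N) (han : a ∈ Subgroup.normalizer (Y₁ : Set E)) {s : E} (hs : s ∈ Y₁)
    (hs2 : s * s = 1) : ∃ y ∈ Y₁, Commute (y * a * y⁻¹) s := by
  have hA : Subgroup.zpowers a ≤ Subgroup.normalizer (Y₁ : Set E) :=
    (Subgroup.zpowers_le).mpr han
  have hcop : (Nat.card (Subgroup.zpowers a)).Coprime (Nat.card Y₁) := by
    rw [Nat.card_zpowers, orderOf_of_mem_Om h.order ha]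
    refine (Nat.Prime.coprime_iff_not_dvd h.prime).mpr fun hd => h.coprime ?_
    exact hd.trans (Subgroup.card_dvd_of_le hY₁)
  obtain ⟨Q, hQ, hQn⟩ := exists_invariant_sylowIn (p := 2) hA hcop (Or.inl inferInstance)
  have hQc := centralizes h hQ.2.1 (hQ.1.trans hY₁) ha (hQn (Subgroup.mem_zpowers a))
  -- a Sylow subgroup of `Y₁` containing `s`
  by_cases hs1 : s = 1
  · exact ⟨1, Y₁.one_mem, by rw [hs1]; exact Commute.one_right _⟩
  have hU : IsPGroup 2 (Subgroup.zpowers (⟨s, hs⟩ : Y₁)) := by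
    refine IsPGroup.of_card (n := 1) ?_
    rw [Nat.card_zpowers, pow_one]
    refine orderOf_eq_prime ?_ (fun e => hs1 (congrArg Subtype.val e))
    rw [sq]
    exact Subtype.ext hs2
  obtain ⟨P, hP⟩ := hU.exists_le_sylow
  have hQ' := isSylowIn_map P
  obtain ⟨k, hk, hke⟩ := hQ.exists_conj hQ'
  have hsQ' : s ∈ (P : Subgroup Y₁).map Y₁.subtype :=
    ⟨⟨s, hs⟩, hP (Subgroup.mem_zpowers _), rfl⟩
  rw [← hke] at hsQ'
  obtain ⟨q, hq, hqs⟩ := Subgroup.mem_smul_pointwise_iff_exists _ _ _ |>.mp hsQ'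
  have hqs' : k * q * k⁻¹ = s := by simpa [MulAut.smul_def, MulAut.conj_apply] using hqs
  refine ⟨k, hk, ?_⟩
  rw [← hqs', Commute.conj_iff]
  exact (hQc q hq).symm

/-- Midpoints: two conjugates of `τ` sending `a` to the same point commute with a common conjugate
of `β`. -/
theorem exists_common (h : Setup N β τ r) {a a' s s' : E} (ha : a ∈ Om N β)
    (hs : s ∈ Inv' N τ) (hs' : s' ∈ Inv' N τ) (h1 : s * a * s⁻¹ = a') (h2 : s' * a * s'⁻¹ = a') :
    ∃ b ∈ Om N β, Commute s b ∧ Commute s' b := by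
  have hss := Inv'_sq h.tau_sq hs
  have hss' := Inv'_sq h.tau_sq hs'
  have hsi : s⁻¹ = s := inv_eq_of_mul_eq_one_left hss
  have hsi' : s'⁻¹ = s' := inv_eq_of_mul_eq_one_left hss'
  rw [hsi] at h1
  rw [hsi'] at h2
  set z := s * s' with hz
  have hza : Commute z a := by
    show z * a = a * z
    have e1 : s' * a = a' * s' := by
      rw [← h2, mul_assoc, mul_assoc, hss', mul_one]
    have e2 : s * a' = a * s := by
      rw [← h1, ← mul_assoc, ← mul_assoc, hss, one_mul]
    calc z * a = s * (s' * a) := by rw [hz, mul_assoc]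
      _ = s * (a' * s') := by rw [e1]
      _ = (s * a') * s' := by group
      _ = (a * s) * s' := by rw [e2]
      _ = a * z := by rw [hz, mul_assoc]
  set Cz := Subgroup.centralizer ({z} : Set E) with hCz
  have hmemCz : ∀ x, x ∈ Cz ↔ Commute x z := by
    intro x
    rw [hCz, Subgroup.mem_centralizer_singleton_iff]
    exact ⟨fun e => e, fun e => e⟩
  set M := Subgroup.normalizer (Cz : Set E) with hM
  set Y₁ := N ⊓ M with hY₁
  have hszs : s * z * s⁻¹ = z⁻¹ := by
    rw [hz, hsi, mul_inv_rev, hsi', hsi]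
    calc s * (s * s') * s = (s * s) * s' * s := by group
      _ = s' * s := by rw [hss, one_mul]
  have hsM : s ∈ M := by
    rw [hM, Subgroup.mem_normalizer_iff]
    intro x
    rw [hmemCz, hmemCz, ← Commute.conj_iff s (a := x) (b := z), hszs, Commute.inv_right_iff]
  have haCz : a ∈ Cz := (hmemCz a).mpr hza.symm
  have haM : a ∈ M := Subgroup.le_normalizer haCz
  have haY : a ∈ Subgroup.normalizer (Y₁ : Set E) := by
    rw [Subgroup.mem_normalizer_iff]
    intro y
    constructor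
    · rintro ⟨hy1, hy2⟩
      exact ⟨Subgroup.Normal.conj_mem inferInstance _ hy1 _,
        Subgroup.mul_mem _ (Subgroup.mul_mem _ haM hy2) (Subgroup.inv_mem _ haM)⟩
    · rintro ⟨hy1, hy2⟩
      have e : y = a⁻¹ * (a * y * a⁻¹) * a := by group
      rw [e]
      refine ⟨?_, Subgroup.mul_mem _ (Subgroup.mul_mem _ (Subgroup.inv_mem _ haM) hy2) haM⟩
      have := Subgroup.Normal.conj_mem (inferInstance : N.Normal) _ hy1 a⁻¹
      simpa using this
  have hsN : s ∈ N := Inv'_mem_N h.tau_mem hs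
  obtain ⟨y, hy, hyc⟩ := exists_conj_commute h ha (inf_le_left : Y₁ ≤ N) haY ⟨hsN, hsM⟩ hss
  refine ⟨y * a * y⁻¹, conj_mem_Om ha hy.1, hyc.symm, ?_⟩
  have hbCz : y * a * y⁻¹ ∈ Cz := (Subgroup.mem_normalizer_iff.mp hy.2 a).mp haCz
  have hbz : Commute (y * a * y⁻¹) z := (hmemCz _).mp hbCz
  have e : s' = s * z := by
    rw [hz, ← mul_assoc, hss, one_mul]
  rw [e]
  exact (hyc.mul_right hbz).symm

/-- All conjugates of `τ` commuting with `β` act in the same way on the conjugates of `β`. -/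
theorem all_agree (h : Setup N β τ r) {t v a : E} (ht : t ∈ Inv' N τ) (hv : v ∈ Inv' N τ)
    (htβ : Commute t β) (hvβ : Commute v β) (ha : a ∈ Om N β) : v * a * v⁻¹ = t * a * t⁻¹ := by
  classical
  haveI := Fintype.ofFinite E
  set O : Finset E := Finset.univ.filter (· ∈ Om N β) with hO
  set I : Finset E := Finset.univ.filter (· ∈ Inv' N τ) with hI
  let Fil : E → Finset E := fun b => I.filter (fun t => Commute t b)
  have hFilMem : ∀ b t, t ∈ Fil b ↔ t ∈ Inv' N τ ∧ Commute t b := by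
    intro b t
    simp [Fil, hI]
  set m := (Fil β).card with hm
  -- all fibres have the same size
  have hFilCard : ∀ b ∈ O, (Fil b).card = m := by
    intro b hb
    obtain ⟨x, hx, rfl⟩ : b ∈ Om N β := by simpa [hO] using hb
    have e : Fil (x * β * x⁻¹) = (Fil β).image (fun t => x * t * x⁻¹) := by
      ext t
      rw [hFilMem, Finset.mem_image]
      constructor
      · rintro ⟨h1, h2⟩
        refine ⟨x⁻¹ * t * x, (hFilMem _ _).mpr ⟨?_, ?_⟩, by group⟩
        · have := conj_mem_Inv' h1 (N.inv_mem hx)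
          simpa using this
        · rw [← Commute.conj_iff x]
          have e : x * (x⁻¹ * t * x) * x⁻¹ = t := by group
          rw [e]; exact h2
      · rintro ⟨t₀, h0, rfl⟩
        obtain ⟨h1, h2⟩ := (hFilMem _ _).mp h0
        exact ⟨conj_mem_Inv' h1 hx, (Commute.conj_iff x).mpr h2⟩
    rw [e, Finset.card_image_of_injective, hm]
    intro p q hpq
    simpa using hpq
  -- `|I| = |O| m`
  have hIcard : I.card = O.card * m := by
    have e : I = O.biUnion Fil := by
      ext t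
      rw [Finset.mem_biUnion]
      constructor
      · intro ht'
        have ht'' : t ∈ Inv' N τ := by simpa [hI] using ht'
        obtain ⟨b, hb, hc⟩ := exists_point h ht''
        exact ⟨b, by simpa [hO] using hb, (hFilMem _ _).mpr ⟨ht'', hc⟩⟩
      · rintro ⟨b, _, hb⟩
        have := ((hFilMem _ _).mp hb).1
        simpa [hI] using this
    rw [e, Finset.card_biUnion]
    · rw [Finset.sum_congr rfl hFilCard]
      simp
    · intro b hb c hc hbc
      show Disjoint (Fil b) (Fil c)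
      rw [Finset.disjoint_left]
      intro t h1 h2
      obtain ⟨h1a, h1b⟩ := (hFilMem _ _).mp h1
      obtain ⟨_, h2b⟩ := (hFilMem _ _).mp h2
      exact hbc (unique_point h h1a (by simpa [hO] using hb) (by simpa [hO] using hc) h1b h2b)
  by_cases haβ : a = β
  · rw [haβ]
    rw [hvβ.eq, htβ.eq]
    group
  have haO : a ∈ O := by simpa [hO] using ha
  have hβO : β ∈ O := by simp [hO, self_mem_Om]
  have htI : t ∈ I := by simpa [hI] using ht
  have hvI : v ∈ I := by simpa [hI] using hv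
  set K := I.filter (fun t => ¬ Commute t a) with hK
  have hIsplit : (Fil a).card + K.card = I.card :=
    Finset.card_filter_add_card_filter_not _
  have hmaps : ((K : Finset E) : Set E).MapsTo (fun t => t * a * t⁻¹) ((O.erase a : Finset E) : Set E) := by
    intro t ht'
    have ht1 : t ∈ K := ht'
    obtain ⟨h1, h2⟩ := Finset.mem_filter.mp ht1
    have h1' : t ∈ Inv' N τ := by simpa [hI] using h1
    have : t * a * t⁻¹ ∈ O.erase a := by
      rw [Finset.mem_erase]
      refine ⟨?_, by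
        have := conj_mem_Om ha (Inv'_mem_N h.tau_mem h1')
        simpa [hO] using this⟩
      intro e
      exact h2 (mul_inv_eq_iff_eq_mul.mp e)
    exact this
  have hKsum := Finset.card_eq_sum_card_fiberwise hmaps
  -- the fibres are small
  have hfib : ∀ a' ∈ O.erase a, (K.filter (fun t => t * a * t⁻¹ = a')).card ≤ m := by
    intro a' _
    by_cases hne : (K.filter (fun t => t * a * t⁻¹ = a')).Nonempty
    · obtain ⟨s₀, hs₀⟩ := hne
      obtain ⟨hs₀K, hs₀e⟩ := Finset.mem_filter.mp hs₀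
      have hs₀I : s₀ ∈ Inv' N τ := by
        have := (Finset.mem_filter.mp hs₀K).1
        simpa [hI] using this
      obtain ⟨b, hb, hbc⟩ := exists_point h hs₀I
      have hsub : K.filter (fun t => t * a * t⁻¹ = a') ⊆ Fil b := by
        intro s' hs'
        obtain ⟨hs'K, hs'e⟩ := Finset.mem_filter.mp hs'
        have hs'I : s' ∈ Inv' N τ := by
          have := (Finset.mem_filter.mp hs'K).1
          simpa [hI] using this
        obtain ⟨b', hb', h1, h2⟩ := exists_common h ha hs₀I hs'I hs₀e hs'e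
        have : b' = b := unique_point h hs₀I hb' hb h1 hbc
        exact (hFilMem _ _).mpr ⟨hs'I, this ▸ h2⟩
      calc _ ≤ (Fil b).card := Finset.card_le_card hsub
        _ = m := hFilCard b (by simpa [hO] using hb)
    · rw [Finset.not_nonempty_iff_eq_empty] at hne
      rw [hne]; simp
  -- the counting forces equality
  have hKcard : K.card = (O.erase a).card * m := by
    have h1 := hFilCard a haO
    have h2 : (O.erase a).card + 1 = O.card := Finset.card_erase_add_one haO
    rw [h1, hIcard, ← h2] at hIsplit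
    nlinarith
  have hfibeq : ∀ a' ∈ O.erase a, (K.filter (fun t => t * a * t⁻¹ = a')).card = m := by
    by_contra hcon
    push Not at hcon
    obtain ⟨a₀, ha₀, hne⟩ := hcon
    have hlt : ∑ a' ∈ O.erase a, (K.filter (fun t => t * a * t⁻¹ = a')).card
        < ∑ _a' ∈ O.erase a, m :=
      Finset.sum_lt_sum hfib ⟨a₀, ha₀, lt_of_le_of_ne (hfib a₀ ha₀) hne⟩
    rw [Finset.sum_const, smul_eq_mul, ← hKsum, hKcard] at hlt
    exact lt_irrefl _ hlt
  -- conclusion
  have hta : ¬ Commute t a := fun hc => haβ (unique_point h ht ha self_mem_Om hc htβ)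
  have htK : t ∈ K := Finset.mem_filter.mpr ⟨htI, hta⟩
  have ha' : t * a * t⁻¹ ∈ O.erase a := hmaps htK
  have hsub : K.filter (fun s => s * a * s⁻¹ = t * a * t⁻¹) ⊆ Fil β := by
    intro s' hs'
    obtain ⟨hs'K, hs'e⟩ := Finset.mem_filter.mp hs'
    have hs'I : s' ∈ Inv' N τ := by
      have := (Finset.mem_filter.mp hs'K).1
      simpa [hI] using this
    obtain ⟨b', hb', h1, h2⟩ := exists_common h ha ht hs'I rfl hs'e
    have : b' = β := unique_point h ht hb' self_mem_Om h1 htβ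
    exact (hFilMem _ _).mpr ⟨hs'I, this ▸ h2⟩
  have heq := Finset.eq_of_subset_of_card_le hsub (by rw [hfibeq _ ha', hm])
  have hvmem : v ∈ Fil β := (hFilMem _ _).mpr ⟨hv, hvβ⟩
  rw [← heq] at hvmem
  exact (Finset.mem_filter.mp hvmem).2

end Cfsg.Agent.Lib.MidPoint.Basic
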